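import Cfsg.Agent.H790.SuperMain

/-!
# Abelian `p`-groups with distinct invariants (helper790)
-/

set_option autoImplicit false

namespace Cfsg.Agent.H790

section inj

/-- The automorphisms of a direct factor. -/
def prodAut (C H : Type*) [Group C] [Group H] : MulAut C →* MulAut (C × H) where
  toFun u := MulEquiv.prodCongr u (MulEquiv.refl H)
  map_one' := by ext x <;> rfl
  map_mul' a b := by ext x <;> rfl

theorem prodAut_injective (C H : Type*) [Group C] [Group H] : Function.Injective (prodAut C H) := by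
  intro a b hab
  ext x
  have h := congrArg (fun u : MulAut (C × H) => (u (x, 1)).1) hab
  exact h

/-- the swap -/
def swapAut (C : Type*) [Group C] : MulAut (C × C) := MulEquiv.prodComm

/-- the rotation `(a, b) ↦ (b, a⁻¹)` -/
def rotAut (C : Type*) [CommGroup C] : MulAut (C × C) where
  toFun x := (x.2, x.1⁻¹)
  invFun x := (x.2⁻¹, x.1)
  left_inv x := by simp
  right_inv x := by simp
  map_mul' x y := by simp [mul_comm]

/-- the rotation of order three `(a, b) ↦ (b⁻¹, a b⁻¹)` -/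
def triAut (C : Type*) [CommGroup C] : MulAut (C × C) where
  toFun x := (x.2⁻¹, x.1 * x.2⁻¹)
  invFun x := (x.2 * x.1⁻¹, x.1⁻¹)
  left_inv x := by simp
  right_inv x := by simp
  map_mul' x y := by
    ext
    · simp [mul_comm]
    · simp only [Prod.fst_mul, Prod.snd_mul, mul_inv]
      rw [mul_mul_mul_comm]

variable {C : Type*} [CommGroup C]

theorem swap_mul_self : swapAut C * swapAut C = 1 := by
  ext x <;> rfl

theorem rot_pow_four : (rotAut C) ^ 4 = 1 := by
  have h2 : ∀ x : C × C, ((rotAut C) ^ 2) x = (x.1⁻¹, x.2⁻¹) := by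
    intro x
    rw [pow_two, MulAut.mul_apply]
    show ((x.1)⁻¹, (x.2)⁻¹) = _
    rfl
  have h3 : (rotAut C) ^ 4 = (rotAut C) ^ 2 * (rotAut C) ^ 2 := by rw [← pow_add]
  rw [h3]
  apply MulEquiv.ext
  intro x
  rw [MulAut.mul_apply, h2, h2]
  simp

theorem swap_rot_swap : swapAut C * rotAut C * (swapAut C)⁻¹ = (rotAut C)⁻¹ := by
  apply MulEquiv.ext
  intro x
  rfl

theorem tri_pow_three : (triAut C) ^ 3 = 1 := by
  apply MulEquiv.ext
  intro x
  rw [pow_succ, pow_two, MulAut.mul_apply, MulAut.mul_apply]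
  show ((((x.1 * x.2⁻¹)⁻¹, x.2⁻¹ * (x.1 * x.2⁻¹)⁻¹) : C × C).2⁻¹,
    (((x.1 * x.2⁻¹)⁻¹, x.2⁻¹ * (x.1 * x.2⁻¹)⁻¹) : C × C).1 *
    (((x.1 * x.2⁻¹)⁻¹, x.2⁻¹ * (x.1 * x.2⁻¹)⁻¹) : C × C).2⁻¹) = x
  ext
  · simp [mul_comm]
  · simp [mul_comm]

end inj

/-- **Repeated invariants**: if `S ≃ (C × C) × H`, `C` cyclic of order `p ^ n ≠ 1`, then some `p'`-subgroup of `Aut(S)` is
not abelian of exponent dividing `p - 1`. -/
theorem not_condition {S : Type*} [Group S] {p : ℕ} [Fact p.Prime] {n : ℕ} (hn : 0 < n) {H : Type*} [CommGroup H]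
    (e : S ≃* (Multiplicative (ZMod (p ^ n)) × Multiplicative (ZMod (p ^ n))) × H)
    (hH : ∀ K : Subgroup (MulAut S), (Nat.card K).Coprime p → IsMulCommutative K ∧ ∀ h ∈ K, h ^ (p - 1) = 1) :
    False := by
  have hp : p.Prime := Fact.out
  have hpn : 1 < p ^ n := Nat.one_lt_pow hn.ne' hp.one_lt
  have : NeZero (p ^ n) := ⟨by omega⟩
  have hfact : Fact (1 < p ^ n) := ⟨hpn⟩
  set C := Multiplicative (ZMod (p ^ n)) with hC
  have : Finite C := inferInstanceAs (Finite (ZMod (p ^ n)))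
  let j : MulAut (C × C) →* MulAut S :=
    (MulAut.congr e).symm.toMonoidHom.comp (prodAut (C × C) H)
  have hj : Function.Injective j := (MulAut.congr e).symm.injective.comp (prodAut_injective _ _)
  rcases hp.eq_two_or_odd' with h2 | hodd
  · subst h2
    have h1 := hH (Subgroup.zpowers (j (triAut C))) (by
      rw [Nat.card_zpowers]
      have h3 : orderOf (j (triAut C)) ∣ 3 := by
        rw [orderOf_dvd_iff_pow_eq_one, ← map_pow, tri_pow_three, map_one]
      exact Nat.Coprime.coprime_dvd_left h3 (by norm_num))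
    have h2 := h1.2 _ (Subgroup.mem_zpowers _)
    have h3 : triAut C = 1 := by
      apply hj
      rw [map_one]
      simpa using h2
    have h4 := congrArg (fun u : MulAut (C × C) => (u (1, Multiplicative.ofAdd (1 : ZMod (2 ^ n)))).1) h3
    have h5 : (Multiplicative.ofAdd (1 : ZMod (2 ^ n)))⁻¹ = 1 := h4
    rw [inv_eq_one] at h5
    have h6 : (1 : ZMod (2 ^ n)) = 0 := h5
    exact one_ne_zero h6
  · have hs2 : IsPGroup 2 (Subgroup.zpowers (swapAut C)) := by
      have h1 : orderOf (swapAut C) ∣ 2 := by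
        rw [orderOf_dvd_iff_pow_eq_one, pow_two, swap_mul_self]
      obtain ⟨k, -, hk⟩ := (Nat.dvd_prime_pow Nat.prime_two (m := 1)).1 (by simpa using h1)
      exact IsPGroup.of_card (n := k) (by rw [Nat.card_zpowers, hk])
    have hr2 : IsPGroup 2 (Subgroup.zpowers (rotAut C)) := by
      have h1 : orderOf (rotAut C) ∣ 2 ^ 2 := by
        rw [orderOf_dvd_iff_pow_eq_one]
        exact rot_pow_four
      obtain ⟨k, -, hk⟩ := (Nat.dvd_prime_pow Nat.prime_two).1 h1
      exact IsPGroup.of_card (n := k) (by rw [Nat.card_zpowers, hk])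
    have hnorm : Subgroup.zpowers (swapAut C) ≤ Subgroup.normalizer (Subgroup.zpowers (rotAut C) : Set _) := by
      rw [Subgroup.zpowers_le, Subgroup.mem_normalizer_iff]
      have h1 : ∀ k : ℤ, swapAut C * (rotAut C) ^ k * (swapAut C)⁻¹ = (rotAut C) ^ (-k) := by
        intro k
        rw [← conj_zpow, swap_rot_swap, inv_zpow, zpow_neg]
      intro x
      constructor
      · rintro ⟨k, rfl⟩
        exact ⟨-k, (h1 k).symm⟩
      · rintro ⟨k, hk⟩
        refine ⟨-k, ?_⟩
        have h2 := h1 (-k)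
        rw [neg_neg] at h2
        have h3 : swapAut C * (rotAut C) ^ (-k) * (swapAut C)⁻¹ = swapAut C * x * (swapAut C)⁻¹ := by
          rw [h2]; exact hk
        exact mul_left_cancel (mul_right_cancel h3)
    have hD : IsPGroup 2 (Subgroup.zpowers (swapAut C) ⊔ Subgroup.zpowers (rotAut C) : Subgroup (MulAut (C × C))) :=
      IsPGroup.to_sup_of_normal_right' hs2 hr2 hnorm
    have := finite_mulAut (C × C)
    obtain ⟨k, hk⟩ := IsPGroup.iff_card.1 hD
    have h1 := (hH ((Subgroup.zpowers (swapAut C) ⊔ Subgroup.zpowers (rotAut C)).map j) (by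
      rw [← Nat.card_congr (Subgroup.equivMapOfInjective _ j hj).toEquiv, hk]
      apply Nat.Coprime.pow_left
      rw [Nat.coprime_two_left]
      exact hodd)).1
    have h2 := congrArg Subtype.val (h1.1.1
      ⟨j (swapAut C), swapAut C, Subgroup.mem_sup_left (Subgroup.mem_zpowers _), rfl⟩
      ⟨j (rotAut C), rotAut C, Subgroup.mem_sup_right (Subgroup.mem_zpowers _), rfl⟩)
    have h3 : j (swapAut C) * j (rotAut C) = j (rotAut C) * j (swapAut C) := h2
    rw [← map_mul, ← map_mul] at h3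
    have h4 := hj h3
    have h5 := congrArg (fun u : MulAut (C × C) => (u (Multiplicative.ofAdd (1 : ZMod (p ^ n)), 1)).1) h4
    have h6 : (Multiplicative.ofAdd (1 : ZMod (p ^ n)))⁻¹ = Multiplicative.ofAdd (1 : ZMod (p ^ n)) := h5
    have h7 : -(1 : ZMod (p ^ n)) = 1 := h6
    have h8 : ((2 : ℕ) : ZMod (p ^ n)) = 0 := by
      have : (1 : ZMod (p ^ n)) + 1 = 0 := by
        nth_rw 1 [← h7]; simp
      push_cast
      rw [← this]; norm_num
    rw [ZMod.natCast_eq_zero_iff] at h8
    have h9 : p ∣ 2 := (dvd_pow_self p hn.ne').trans h8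
    have h10 := (Nat.prime_dvd_prime_iff_eq hp Nat.prime_two).1 h9
    subst h10
    exact absurd hodd (by decide)

/-! ### Distinct invariants -/

/-- An element killed by `p` in `Z / p ^ (m + 1)` is a multiple of `p ^ m`. -/
theorem exists_eq_mul {p : ℕ} [Fact p.Prime] {m : ℕ} (y : ZMod (p ^ (m + 1))) (hy : p • y = 0) :
    ∃ c : ZMod (p ^ (m + 1)), y = p ^ m • c := by
  have hp : p.Prime := Fact.out
  have : NeZero (p ^ (m + 1)) := ⟨(pow_pos hp.pos _).ne'⟩
  have h1 : ((p * y.val : ℕ) : ZMod (p ^ (m + 1))) = 0 := by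
    rw [Nat.cast_mul, ZMod.natCast_zmod_val, ← nsmul_eq_mul, hy]
  rw [ZMod.natCast_eq_zero_iff] at h1
  have h2 : p ^ m ∣ y.val := by
    have h3 : p * p ^ m ∣ p * y.val := by rwa [← pow_succ']
    exact (Nat.mul_dvd_mul_iff_left hp.pos).1 h3
  obtain ⟨c, hc⟩ := h2
  refine ⟨(c : ZMod (p ^ (m + 1))), ?_⟩
  rw [← ZMod.natCast_zmod_val y, hc, nsmul_eq_mul, Nat.cast_mul]

section dist

variable {S : Type*} [CommGroup S]

/-- The elements of order dividing `p` that are `p ^ j`-th powers. -/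
def dd (S : Type*) [CommGroup S] (p j : ℕ) : Subgroup S :=
  (powMonoidHom p : S →* S).ker ⊓ (powMonoidHom (p ^ j) : S →* S).range

theorem mem_dd {p j : ℕ} {s : S} : s ∈ dd S p j ↔ s ^ p = 1 ∧ ∃ w : S, w ^ p ^ j = s := Iff.rfl

theorem dd_invariant {p j : ℕ} (a : MulAut S) {s : S} (hs : s ∈ dd S p j) : a s ∈ dd S p j := by
  obtain ⟨h1, w, h2⟩ := mem_dd.1 hs
  exact mem_dd.2 ⟨by rw [← map_pow, h1, map_one], a w, by rw [← map_pow, h2]⟩

theorem dd_succ_le {p j : ℕ} : dd S p (j + 1) ≤ dd S p j := by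
  intro s hs
  obtain ⟨h1, w, h2⟩ := mem_dd.1 hs
  exact mem_dd.2 ⟨h1, w ^ p, by rw [← pow_mul, ← pow_succ', h2]⟩

/-- The steps of the chain `dd` are cyclic for distinct invariants. -/
theorem exists_dd_step {p : ℕ} [Fact p.Prime] {ι : Type*} (e : ι → ℕ)
    (he : Function.Injective e) (f : S ≃* ((i : ι) → Multiplicative (ZMod (p ^ e i)))) (j : ℕ) :
    ∃ x : S, dd S p j = dd S p (j + 1) ⊔ Subgroup.zpowers x := by
  classical
  -- the components
  have hcomp : ∀ (i : ι) (v w : Multiplicative (ZMod (p ^ e i))), v ^ p = 1 → w ^ p ^ j = v → e i ≠ j + 1 →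
      ∃ u : Multiplicative (ZMod (p ^ e i)), u ^ p ^ (j + 1) = v := by
    intro i v w hv hw hne
    by_cases hle : e i ≤ j
    · refine ⟨1, ?_⟩
      rw [one_pow, ← hw]
      have h1 : w ^ p ^ e i = 1 := by
        have h2 : (p ^ e i) • (Multiplicative.toAdd w) = 0 := by
          rw [nsmul_eq_mul, ZMod.natCast_self, zero_mul]
        exact h2
      obtain ⟨c, hc⟩ := pow_dvd_pow p hle
      rw [hc, pow_mul, h1, one_pow]
    · obtain ⟨m, hm⟩ : ∃ m, e i = m + 1 := ⟨e i - 1, by omega⟩
      have key : ∀ (m : ℕ), j + 1 < m + 1 → ∀ v : ZMod (p ^ (m + 1)), p • v = 0 →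
          ∃ u : ZMod (p ^ (m + 1)), p ^ (j + 1) • u = v := by
        intro m hm v hv
        obtain ⟨c, rfl⟩ := exists_eq_mul v hv
        obtain ⟨d, hd⟩ := pow_dvd_pow p (show j + 1 ≤ m by omega)
        exact ⟨d • c, by rw [← mul_nsmul', ← hd]⟩
      have key' : ∀ (k : ℕ), k = m + 1 → j + 1 < m + 1 → ∀ v : ZMod (p ^ k), p • v = 0 →
          ∃ u : ZMod (p ^ k), p ^ (j + 1) • u = v := by
        rintro k rfl
        exact key m
      exact key' (e i) hm (by omega) v hv
  by_cases hex : ∃ i, e i = j + 1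
  · obtain ⟨i₀, hi₀⟩ := hex
    let x : S := f.symm (Pi.mulSingle i₀ (Multiplicative.ofAdd ((p ^ j : ℕ) : ZMod (p ^ e i₀))))
    have hfx : f x = Pi.mulSingle i₀ (Multiplicative.ofAdd ((p ^ j : ℕ) : ZMod (p ^ e i₀))) :=
      f.apply_symm_apply _
    have hx : x ∈ dd S p j := by
      rw [mem_dd]
      constructor
      · apply f.injective
        rw [map_pow, map_one, hfx, ← Pi.mulSingle_pow]
        have h1 : (Multiplicative.ofAdd ((p ^ j : ℕ) : ZMod (p ^ e i₀))) ^ p = 1 := by
          have h2 : p • ((p ^ j : ℕ) : ZMod (p ^ e i₀)) = 0 := by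
            rw [nsmul_eq_mul, ← Nat.cast_mul, ← pow_succ', ← hi₀, ZMod.natCast_self]
          exact h2
        rw [h1, Pi.mulSingle_one]
      · refine ⟨f.symm (Pi.mulSingle i₀ (Multiplicative.ofAdd (1 : ZMod (p ^ e i₀)))), ?_⟩
        apply f.injective
        rw [map_pow, f.apply_symm_apply, hfx, ← Pi.mulSingle_pow]
        congr 1
        have h2 : (p ^ j) • (1 : ZMod (p ^ e i₀)) = ((p ^ j : ℕ) : ZMod (p ^ e i₀)) := by
          rw [nsmul_eq_mul, mul_one]
        exact h2
    refine ⟨x, le_antisymm ?_ (sup_le dd_succ_le (by rw [Subgroup.zpowers_le]; exact hx))⟩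
    intro s hs
    obtain ⟨hs1, w, hw⟩ := mem_dd.1 hs
    -- the component at `i₀`
    obtain ⟨c, hc⟩ : ∃ c : ℕ, (f s) i₀ = (f x i₀) ^ c := by
      have hne : NeZero (p ^ e i₀) := ⟨(pow_pos (Fact.out : p.Prime).pos _).ne'⟩
      refine ⟨ZMod.val (Multiplicative.toAdd (f w i₀)), ?_⟩
      rw [hfx, Pi.mulSingle_eq_same, ← hw, map_pow, Pi.pow_apply]
      have h2 : (p ^ j) • (Multiplicative.toAdd (f w i₀)) =
          (ZMod.val (Multiplicative.toAdd (f w i₀))) • ((p ^ j : ℕ) : ZMod (p ^ e i₀)) := by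
        rw [nsmul_eq_mul, nsmul_eq_mul, ZMod.natCast_zmod_val, mul_comm]
      exact h2
    have h1 : s = (s * (x ^ c)⁻¹) * x ^ c := by group
    rw [h1]
    refine Subgroup.mul_mem _ (Subgroup.mem_sup_left ?_) (Subgroup.mem_sup_right
      (Subgroup.pow_mem _ (Subgroup.mem_zpowers x) c))
    have hxc : x ^ c ∈ dd S p j := Subgroup.pow_mem _ hx c
    have h2 : s * (x ^ c)⁻¹ ∈ dd S p j := Subgroup.mul_mem _ hs (Subgroup.inv_mem _ hxc)
    obtain ⟨h3, w', h4⟩ := mem_dd.1 h2
    rw [mem_dd]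
    refine ⟨h3, ?_⟩
    have h5 : ∀ i, ∃ u : Multiplicative (ZMod (p ^ e i)), u ^ p ^ (j + 1) = f (s * (x ^ c)⁻¹) i := by
      intro i
      by_cases hi : i = i₀
      · subst hi
        refine ⟨1, ?_⟩
        rw [one_pow, map_mul, map_inv, map_pow, Pi.mul_apply, Pi.inv_apply, Pi.pow_apply, hc, mul_inv_cancel]
      · refine hcomp i _ (f w' i) ?_ ?_ (fun h => hi (he (h.trans hi₀.symm)))
        · rw [← Pi.pow_apply, ← map_pow, h3, map_one, Pi.one_apply]
        · rw [← Pi.pow_apply, ← map_pow, h4]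
    choose u hu using h5
    refine ⟨f.symm u, ?_⟩
    apply f.injective
    rw [map_pow, f.apply_symm_apply]
    funext i
    exact hu i
  · refine ⟨1, ?_⟩
    rw [Subgroup.zpowers_one_eq_bot, sup_bot_eq]
    refine le_antisymm ?_ dd_succ_le
    intro s hs
    obtain ⟨h3, w', h4⟩ := mem_dd.1 hs
    rw [mem_dd]
    refine ⟨h3, ?_⟩
    have h5 : ∀ i, ∃ u : Multiplicative (ZMod (p ^ e i)), u ^ p ^ (j + 1) = f s i := by
      intro i
      refine hcomp i _ (f w' i) ?_ ?_ (fun h => hex ⟨i, h⟩)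
      · rw [← Pi.pow_apply, ← map_pow, h3, map_one, Pi.one_apply]
      · rw [← Pi.pow_apply, ← map_pow, h4]
    choose u hu using h5
    refine ⟨f.symm u, ?_⟩
    apply f.injective
    rw [map_pow, f.apply_symm_apply]
    funext i
    exact hu i

/-- The chain. -/
theorem cc_dd {p : ℕ} [Fact p.Prime] [Finite S] (hS : IsPGroup p S) {ι : Type*} (e : ι → ℕ)
    (he : Function.Injective e) (f : S ≃* ((i : ι) → Multiplicative (ZMod (p ^ e i)))) :
    CC (⊤ : Subgroup (MulAut S)) (dd S p 0) := by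
  obtain ⟨n, hn⟩ := IsPGroup.iff_card.1 hS
  have key : ∀ k : ℕ, CC (⊤ : Subgroup (MulAut S)) (dd S p (n - k)) := by
    intro k
    induction k with
    | zero =>
      have h1 : dd S p (n - 0) = ⊥ := by
        rw [eq_bot_iff]
        intro s hs
        obtain ⟨-, w, rfl⟩ := mem_dd.1 hs
        rw [Nat.sub_zero, ← hn]
        exact pow_card_eq_one'
      rw [h1]; exact CC.bot
    | succ k ih =>
      by_cases hk : n - k = 0
      · have : n - (k + 1) = n - k := by omega
        rw [this]; exact ih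
      · have hk' : n - k = (n - (k + 1)) + 1 := by omega
        rw [hk'] at ih
        obtain ⟨x, hx⟩ := exists_dd_step e he f (n - (k + 1))
        exact CC.step x ih inferInstance (fun a _ t ht => dd_invariant a ht)
          (fun a _ t ht => dd_invariant a ht) hx
  have := key n
  rwa [Nat.sub_self] at this

/-- An automorphism of an abelian `p`-group trivial on the elements of order `p` has `p`-power order. -/
theorem pow_eq_one_of_omega {p : ℕ} [Fact p.Prime] [Finite S] (hS : IsPGroup p S) (κ : MulAut S)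
    (h : ∀ s : S, s ^ p = 1 → κ s = s) : ∃ k : ℕ, κ ^ p ^ k = 1 := by
  obtain ⟨n, hn⟩ := IsPGroup.iff_card.1 hS
  refine Cfsg.Agent.H759.exists_pow_eq_one_of_chain hS κ n
    (fun i => (powMonoidHom (p ^ (n - i)) : S →* S).ker) ?_ ?_ ?_ ?_
  · rw [eq_top_iff]
    intro s _
    show s ^ p ^ (n - 0) = 1
    rw [Nat.sub_zero, ← hn]
    exact pow_card_eq_one'
  · rw [eq_bot_iff]
    intro s hs
    have h1 : s ^ p ^ (n - n) = 1 := hs
    rw [Nat.sub_self, pow_zero, pow_one] at h1
    exact h1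
  · intro i _ x hx
    have h1 : x ^ p ^ (n - i) = 1 := hx
    show (κ x) ^ p ^ (n - i) = 1
    rw [← map_pow, h1, map_one]
  · intro i hi x hx
    have h1 : x ^ p ^ (n - i) = 1 := hx
    show (x⁻¹ * κ x) ^ p ^ (n - (i + 1)) = 1
    rw [mul_pow, ← map_pow, h, inv_pow, inv_mul_cancel]
    rw [← pow_mul, ← pow_succ]
    have : n - (i + 1) + 1 = n - i := by omega
    rw [this, h1]

/-- **Distinct invariants**: the `p'`-subgroups of `Aut(S)` are abelian of exponent dividing `p - 1`. -/
theorem condition_of_injective {p : ℕ} [Fact p.Prime] [Finite S] (hS : IsPGroup p S) {ι : Type*} (e : ι → ℕ)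
    (he : Function.Injective e) (f : S ≃* ((i : ι) → Multiplicative (ZMod (p ^ e i))))
    (H : Subgroup (MulAut S)) (hH : (Nat.card H).Coprime p) :
    IsMulCommutative H ∧ ∀ h ∈ H, h ^ (p - 1) = 1 := by
  have hcc := cc_dd hS e he f
  have := finite_mulAut S
  have hmem : ∀ s : S, s ^ p = 1 → s ∈ dd S p 0 := fun s hs => mem_dd.2 ⟨hs, s, by simp⟩
  have hord : ∀ a ∈ H, (orderOf a).Coprime p := by
    intro a ha
    have h1 : orderOf a ∣ Nat.card H := by
      have := orderOf_dvd_natCard (⟨a, ha⟩ : H)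
      rwa [Subgroup.orderOf_mk] at this
    exact Nat.Coprime.coprime_dvd_left h1 hH
  constructor
  · refine ⟨⟨fun a b => Subtype.ext ?_⟩⟩
    obtain ⟨a, ha⟩ := a
    obtain ⟨b, hb⟩ := b
    show a * b = b * a
    obtain ⟨N, hN⟩ := comm_of_cc hS hcc a (Subgroup.mem_top a) b (Subgroup.mem_top b)
    obtain ⟨k, hk⟩ := pow_eq_one_of_omega hS _ (fun s hs => hN s (hmem s hs))
    have h1 : (a⁻¹ * b⁻¹ * a * b) ^ (1 * p ^ (N + k)) = 1 := by
      rw [one_mul, pow_add, pow_mul, hk]
    have h2 := pow_eq_one_of_coprime (hord _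
      (H.mul_mem (H.mul_mem (H.mul_mem (H.inv_mem ha) (H.inv_mem hb)) ha) hb)) h1
    rw [pow_one] at h2
    have h3 : b * a * (a⁻¹ * b⁻¹ * a * b) = a * b := by group
    rw [← h3, h2, mul_one]
  · intro a ha
    obtain ⟨N, hN⟩ := pow_of_cc hS hcc a (Subgroup.mem_top a)
    obtain ⟨k, hk⟩ := pow_eq_one_of_omega hS _ (fun s hs => hN s (hmem s hs))
    refine pow_eq_one_of_coprime (N := N + k) (hord a ha) ?_
    rw [pow_add, ← mul_assoc, pow_mul, hk]

end dist

/-- Splitting off two equal cyclic factors. -/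
theorem exists_split {ι : Type} [Fintype ι] (n : ι → ℕ) {i j : ι} (hij : i ≠ j) {m : ℕ} (hi : n i = m)
    (hj : n j = m) : ∃ (H : Type) (_ : CommGroup H),
      Nonempty (((k : ι) → Multiplicative (ZMod (n k))) ≃*
        (Multiplicative (ZMod m) × Multiplicative (ZMod m)) × H) := by
  classical
  refine ⟨(k : {k : ι // k ≠ i ∧ k ≠ j}) → Multiplicative (ZMod (n k)), inferInstance, ⟨?_⟩⟩
  let ci : Multiplicative (ZMod (n i)) ≃* Multiplicative (ZMod m) :=
    AddEquiv.toMultiplicative (ZMod.ringEquivCongr hi).toAddEquiv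
  let cj : Multiplicative (ZMod (n j)) ≃* Multiplicative (ZMod m) :=
    AddEquiv.toMultiplicative (ZMod.ringEquivCongr hj).toAddEquiv
  let F : ((k : ι) → Multiplicative (ZMod (n k))) →*
      (Multiplicative (ZMod m) × Multiplicative (ZMod m)) ×
        ((k : {k : ι // k ≠ i ∧ k ≠ j}) → Multiplicative (ZMod (n k))) :=
    { toFun := fun f => ((ci (f i), cj (f j)), fun k => f k)
      map_one' := by
        simp only [Pi.one_apply, map_one]
        rfl
      map_mul' := fun f g => by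
        simp only [Pi.mul_apply, map_mul]
        rfl }
  refine MulEquiv.ofBijective F ⟨?_, ?_⟩
  · intro f g hfg
    have h1 := congrArg (fun x => x.1.1) hfg
    have h2 := congrArg (fun x => x.1.2) hfg
    have h3 := congrArg (fun x => x.2) hfg
    funext k
    by_cases hk : k = i
    · subst hk; exact ci.injective h1
    · by_cases hk' : k = j
      · subst hk'; exact cj.injective h2
      · exact congrFun h3 ⟨k, hk, hk'⟩
  · rintro ⟨⟨a, b⟩, h⟩
    refine ⟨fun k => if hk : k = i then hk ▸ ci.symm a else if hk' : k = j then hk' ▸ cj.symm b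
      else h ⟨k, hk, hk'⟩, ?_⟩
    refine Prod.ext (Prod.ext ?_ ?_) ?_
    · show ci (dite _ _ _) = a
      rw [dif_pos rfl]
      exact ci.apply_symm_apply a
    · show cj (dite _ _ _) = b
      rw [dif_neg hij.symm, dif_pos rfl]
      exact cj.apply_symm_apply b
    · funext k
      show dite _ _ _ = h k
      rw [dif_neg k.2.1, dif_neg k.2.2]

/-- **The `p'`-subgroups of the automorphism group of an abelian `p`-group without repeated invariants.** -/
theorem condition_of_no_split {S : Type*} [Group S] [Finite S] {p : ℕ} [Fact p.Prime] (hS : IsPGroup p S)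
    (hab : IsMulCommutative S)
    (hno : ¬ ∃ (n : ℕ) (H : Type) (_ : CommGroup H), 0 < n ∧
      Nonempty (S ≃* (Multiplicative (ZMod (p ^ n)) × Multiplicative (ZMod (p ^ n))) × H))
    (H : Subgroup (MulAut S)) (hH : (Nat.card H).Coprime p) :
    IsMulCommutative H ∧ ∀ h ∈ H, h ^ (p - 1) = 1 := by
  classical
  let cg : CommGroup S := { (inferInstance : Group S) with mul_comm := hab.1.1 }
  have hfin : @Finite S := ‹_›
  obtain ⟨ι, hι, n, hn, ⟨f⟩⟩ := @CommGroup.equiv_prod_multiplicative_zmod_of_finite S cg hfin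
  have hpow : ∀ i, ∃ k : ℕ, n i = p ^ k := by
    intro i
    have hne : NeZero (n i) := ⟨by have := hn i; omega⟩
    let g : Multiplicative (ZMod (n i)) →* S :=
      (f.symm : _ ≃* S).toMonoidHom.comp (MonoidHom.mulSingle (fun k => Multiplicative (ZMod (n k))) i)
    have hg : Function.Injective g := f.symm.injective.comp
      (Pi.mulSingle_injective (M := fun k => Multiplicative (ZMod (n k))) i)
    have h1 : IsPGroup p (Multiplicative (ZMod (n i))) := hS.of_injective g hg
    have : Finite (Multiplicative (ZMod (n i))) := inferInstanceAs (Finite (ZMod (n i)))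
    obtain ⟨k, hk⟩ := IsPGroup.iff_card.1 h1
    refine ⟨k, ?_⟩
    rw [← hk]
    exact (Nat.card_zmod (n i)).symm
  choose e he using hpow
  have hinj : Function.Injective e := by
    intro i j hij
    by_contra hne
    obtain ⟨H', hc, ⟨g⟩⟩ := exists_split n hne (m := p ^ e i) (he i) (by rw [he j, hij])
    refine hno ⟨e i, H', hc, ?_, ⟨f.trans g⟩⟩
    by_contra h0
    have h1 : e i = 0 := by omega
    have h2 := hn i
    rw [he i, h1, pow_zero] at h2
    exact absurd h2 (by norm_num)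
  obtain rfl : n = fun i => p ^ e i := funext he
  exact @condition_of_injective S cg p _ hfin hS ι e hinj f H hH

end Cfsg.Agent.H790
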