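import Cfsg.Agent.H771.FunctorQd
import Cfsg.Agent.H782.QdIff
import Cfsg.Agent.H40.QdTwo
import Cfsg.Agent.PLocal.ThompsonJA
import Cfsg.Agent.S0664
import Cfsg.Agent.TwoFusion.S4FreeFunctor

/-!
# `Qd(p)`-free fusion systems: a characteristic subgroup of `S` normal in all of them (helper790)

`WW p Q` is `Z(J(Q))` for odd `p` and the largest subgroup with the property of Stellmacher's theorem for `p = 2`.
-/

set_option autoImplicit false

universe u

namespace Cfsg.Agent.H790

open Cfsg Cfsg.FusionSystem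

open Classical in
/-- The functor. -/
noncomputable def WW (p : ℕ) (Q : Type u) [Group Q] : Subgroup Q :=
  if p = 2 then TwoFusion.S4FreeFunctor.WS Q else centerThompsonAOf (⊤ : Subgroup Q)

theorem ww_ne_bot {p : ℕ} [Fact p.Prime] (Q : Type u) [Group Q] [Finite Q] (hQ : IsPGroup p Q)
    (hn : Nontrivial Q) : WW p Q ≠ ⊥ := by
  unfold WW
  split_ifs with h
  · subst h
    obtain ⟨W, hW1, hW2, hW3⟩ := Cfsg.Agent.S0665.result (S := Q) hQ
    intro h
    apply hW1
    have h2 : W ≤ TwoFusion.S4FreeFunctor.WS Q := le_sSup ⟨hW2, hW3⟩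
    rw [h] at h2
    exact le_bot_iff.1 h2
  · refine PLocal.ThompsonJA.centerThompsonAOf_ne_bot (p := p) (⊤ : Subgroup Q) (hQ.to_subgroup _) ?_
    exact (Subgroup.nontrivial_iff_ne_bot _).1 inferInstance

theorem ww_map (p : ℕ) (Q R : Type u) [Group Q] [Group R] (φ : Q ≃* R) :
    (WW p Q).map φ.toMonoidHom = WW p R := by
  unfold WW
  split_ifs with h
  · exact TwoFusion.S4FreeFunctor.map_WS φ
  · rw [PLocal.ThompsonJA.map_centerThompsonAOf φ.toMonoidHom φ.injective]
    congr 1
    exact Subgroup.map_top_of_surjective _ φ.surjective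

theorem involves_congr_left {H : Type*} {H' : Type*} [Group H] [Group H'] (e : H ≃* H') {L : Type*} [Group L]
    (h : Involves H L) : Involves H' L := by
  obtain ⟨K, R, hn, ⟨f⟩⟩ := h
  exact ⟨K, R, hn, ⟨f.trans e⟩⟩

theorem ww_normal {p : ℕ} [Fact p.Prime] (L : Type u) [Group L] [Finite L] (P : Sylow p L)
    (hc : Subgroup.centralizer ((pCore p L : Subgroup L) : Set L) ≤ pCore p L)
    (hfree : ¬ Involves ↥(qd p) L) : ((WW p ↥(P : Subgroup L)).map (P : Subgroup L).subtype).Normal := by
  by_cases h : p = 2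
  · subst h
    have h1 : WW 2 ↥(P : Subgroup L) = TwoFusion.S4FreeFunctor.WS ↥(P : Subgroup L) := by
      unfold WW; simp
    rw [h1]
    refine (TwoFusion.S4FreeFunctor.good_WS ↥(P : Subgroup L)).2 L (P : Subgroup L).subtype
      (Subgroup.subtype_injective _) ⟨P, by rw [Subgroup.range_subtype]⟩ ?_ hc
    intro h2
    apply hfree
    obtain ⟨e⟩ := H40.QdTwo.qd_two
    exact involves_congr_left e.symm h2
  · have h1 : WW p ↥(P : Subgroup L) = centerThompsonAOf (⊤ : Subgroup ↥(P : Subgroup L)) := by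
      unfold WW; simp [h]
    rw [h1, PLocal.ThompsonJA.map_centerThompsonAOf _ (Subgroup.subtype_injective _)]
    have h2 : (⊤ : Subgroup ↥(P : Subgroup L)).map (P : Subgroup L).subtype = (P : Subgroup L) := by
      rw [← MonoidHom.range_eq_map, Subgroup.range_subtype]
    rw [h2]
    exact Cfsg.Agent.S0664.result h hfree hc P

/-- **The subgroup `W(S)` is normal in every `Qd(p)`-free saturated system over `S`.** -/
theorem isNormal_ww {p : ℕ} [Fact p.Prime] {Ω : Type u} [Group Ω] {S : Subgroup Ω} [Finite S]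
    (hS : IsPGroup p S) (F : FusionSystem S) (hF : F.IsSaturated p)
    (hfree : ¬ H782.QdFus.HasNat p F) : F.IsNormal ((WW p ↥S).map S.subtype) :=
  H771.functor_isNormal (fun Q _ => WW p Q) (fun Q _ _ => ww_ne_bot Q)
    (fun Q R _ _ _ _ φ => ww_map p Q R φ) (fun L _ _ P => ww_normal L P) hS F hF hfree

theorem exists_char_normal {p : ℕ} [Fact p.Prime] {Ω : Type u} [Group Ω] {S : Subgroup Ω} [Finite S]
    (hS : IsPGroup p S) (hne : S ≠ ⊥) :
    ∃ W : Subgroup Ω, W ≤ S ∧ W ≠ ⊥ ∧ (W.subgroupOf S).Characteristic ∧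
      ∀ F : FusionSystem S, F.IsSaturated p → ¬ H782.QdFus.HasNat p F → F.IsNormal W := by
  have hn : Nontrivial S := (Subgroup.nontrivial_iff_ne_bot S).2 hne
  refine ⟨(WW p ↥S).map S.subtype, Subgroup.map_subtype_le _, ?_, ?_, fun F hF hfree =>
    isNormal_ww hS F hF hfree⟩
  · intro h
    exact ww_ne_bot S hS hn ((Subgroup.map_eq_bot_iff_of_injective _ S.subtype_injective).1 h)
  · have h1 : ((WW p ↥S).map S.subtype).subgroupOf S = WW p ↥S :=
      Subgroup.comap_map_eq_self_of_injective S.subtype_injective _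
    rw [h1, Subgroup.characteristic_iff_map_eq]
    intro φ
    exact ww_map p S S φ

end Cfsg.Agent.H790
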